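import Mathlib

/-! `SL(2, K)` in characteristic two: the elements `uu d`, `nn`, `hh a`, their relations, the
Bruhat induction principle, conjugacy of all elements of trace one, simplicity. -/

set_option autoImplicit false
set_option linter.unusedSectionVars false
set_option linter.unusedSimpArgs false
open Matrix MatrixGroups

namespace Cfsg.Agent.HigSL

variable {K : Type*} [Field K] [CharP K 2]

/-- Upper unitriangular matrices. -/
def uu (d : K) : SL(2, K) := ⟨!![1, d; 0, 1], by simp [det_fin_two]⟩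
/-- The antidiagonal involution. -/
def nn : SL(2, K) := ⟨!![0, 1; 1, 0], by simp [det_fin_two, CharTwo.neg_eq]⟩
/-- Diagonal matrices. -/
def hh (a : K) (ha : a ≠ 0) : SL(2, K) := ⟨!![a, 0; 0, a⁻¹], by simp [det_fin_two, ha]⟩

theorem uu_val (d : K) : (uu d).1 = !![1, d; 0, 1] := rfl
theorem nn_val : (nn : SL(2, K)).1 = !![0, 1; 1, 0] := rfl
theorem hh_val (a : K) (ha : a ≠ 0) : (hh a ha).1 = !![a, 0; 0, a⁻¹] := rfl

theorem one00 : (1 : SL(2, K)).1 0 0 = 1 := by simp
theorem one01 : (1 : SL(2, K)).1 0 1 = 0 := by simp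
theorem one10 : (1 : SL(2, K)).1 1 0 = 0 := by simp
theorem one11 : (1 : SL(2, K)).1 1 1 = 1 := by simp

theorem two0 : (2 : K) = 0 := CharTwo.two_eq_zero

theorem sl_ext {g g' : SL(2, K)} (h0 : g.1 0 0 = g'.1 0 0) (h1 : g.1 0 1 = g'.1 0 1)
    (h2 : g.1 1 0 = g'.1 1 0) (h3 : g.1 1 1 = g'.1 1 1) : g = g' := by
  ext i j; fin_cases i <;> fin_cases j <;> assumption

theorem mul_e (g g' : SL(2, K)) (i j : Fin 2) :
    (g * g').1 i j = g.1 i 0 * g'.1 0 j + g.1 i 1 * g'.1 1 j := by
  simp [Matrix.mul_apply, Fin.sum_univ_two]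

theorem det_e (g : SL(2, K)) : g.1 0 0 * g.1 1 1 - g.1 0 1 * g.1 1 0 = 1 := by
  rw [← det_fin_two]; exact g.2

theorem uu_mul (d e : K) : uu d * uu e = uu (d + e) := by
  apply sl_ext <;> simp [-SpecialLinearGroup.coe_mul, mul_e, uu_val, nn_val, hh_val, add_comm]

theorem uu_zero : uu (0 : K) = 1 := by
  apply sl_ext <;> simp [uu]

theorem nn_nn : (nn : SL(2, K)) * nn = 1 := by
  apply sl_ext <;> simp [-SpecialLinearGroup.coe_mul, mul_e, uu_val, nn_val, hh_val]

theorem hh_mul (a b : K) (ha : a ≠ 0) (hb : b ≠ 0) :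
    hh a ha * hh b hb = hh (a * b) (mul_ne_zero ha hb) := by
  apply sl_ext <;> simp [-SpecialLinearGroup.coe_mul, mul_e, uu_val, nn_val, hh_val, mul_comm]

theorem hh_one : hh (1 : K) one_ne_zero = 1 := by
  apply sl_ext <;> simp [hh]

theorem nn_hh (a : K) (ha : a ≠ 0) : nn * hh a ha = hh a⁻¹ (inv_ne_zero ha) * nn := by
  apply sl_ext <;> simp [-SpecialLinearGroup.coe_mul, mul_e, uu_val, nn_val, hh_val]

theorem hnh (a : K) (ha : a ≠ 0) : hh a ha * nn * hh a ha = nn := by
  apply sl_ext <;> simp [-SpecialLinearGroup.coe_mul, mul_e, uu_val, nn_val, hh_val, ha]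

theorem uu_hh (d a : K) (ha : a ≠ 0) : uu d * hh a ha = hh a ha * uu (d / a ^ 2) := by
  apply sl_ext <;> simp [-SpecialLinearGroup.coe_mul, mul_e, uu_val, nn_val, hh_val]
  field_simp

theorem cube (y : SL(2, K)) (hy : y.1.trace = 1) : y * y * y = 1 := by
  rw [trace_fin_two] at hy
  have hd := det_e y
  have h2 : (2 : K) = 0 := two0
  apply sl_ext <;> simp only [mul_e, one00, one01, one10, one11]
  · have : y.1 1 1 = 1 - y.1 0 0 := by linear_combination hy
    rw [this] at hd ⊢
    linear_combination (-(y.1 0 0) - 1) * hd + (-1) * h2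
  · have : y.1 1 1 = 1 - y.1 0 0 := by linear_combination hy
    rw [this] at hd ⊢
    linear_combination (-(y.1 0 1)) * hd
  · have : y.1 1 1 = 1 - y.1 0 0 := by linear_combination hy
    rw [this] at hd ⊢
    linear_combination (-(y.1 1 0)) * hd
  · have : y.1 1 1 = 1 - y.1 0 0 := by linear_combination hy
    rw [this] at hd ⊢
    linear_combination (y.1 0 0 - 2) * hd + (-1) * h2

theorem tr_un (a : K) (ha : a ≠ 0) : (uu a * hh a ha * nn).1.trace = 1 := by
  simp [-SpecialLinearGroup.coe_mul, mul_e, uu_val, nn_val, hh_val, trace_fin_two, ha]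

theorem sq_un (a : K) (ha : a ≠ 0) :
    (uu a * hh a ha * nn) * (uu a * hh a ha * nn) = hh a ha * nn * uu a := by
  have h2 : (2 : K) = 0 := two0
  apply sl_ext <;> simp [-SpecialLinearGroup.coe_mul, mul_e, uu_val, nn_val, hh_val, ha]
  linear_combination h2

theorem lower_mul (a : K) (ha : a ≠ 0) (ha1 : a + 1 ≠ 0) :
    (hh a ha * nn * uu a * (hh a ha * nn)) * (nn * uu 1 * nn) =
      hh (a / (a + 1)) (div_ne_zero ha ha1) * nn * uu (a / (a + 1)) *
        (hh (a / (a + 1)) (div_ne_zero ha ha1) * nn) := by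
  apply sl_ext <;> simp [-SpecialLinearGroup.coe_mul, mul_e, uu_val, nn_val, hh_val, ha, ha1]
  field_simp
  ring

theorem bruhat {p : SL(2, K) → Prop} (hu : ∀ d, p (uu d)) (hn : p nn) (hh' : ∀ a ha, p (hh a ha))
    (hm : ∀ g g', p g → p g' → p (g * g')) (g : SL(2, K)) : p g := by
  have h2 : (2 : K) = 0 := two0
  have key : ∀ g : SL(2, K), g.1 1 0 ≠ 0 → p g := by
    intro g hc
    have hd := det_e g
    have : g = uu (g.1 0 0 / g.1 1 0) * hh (g.1 1 0)⁻¹ (inv_ne_zero hc) * nn * uu (g.1 1 1 / g.1 1 0) := by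
      apply sl_ext <;> simp [-SpecialLinearGroup.coe_mul, mul_e, uu_val, nn_val, hh_val, hc]
      · field_simp
        linear_combination (-1) * hd + (-1) * h2
      · field_simp
    rw [this]
    exact hm _ _ (hm _ _ (hm _ _ (hu _) (hh' _ _)) hn) (hu _)
  by_cases hc : g.1 1 0 = 0
  · have hd := det_e g
    have : g = nn * (nn * g) := by rw [← mul_assoc, nn_nn, one_mul]
    rw [this]
    refine hm _ _ hn (key _ ?_)
    simp [-SpecialLinearGroup.coe_mul, mul_e, nn_val]
    intro h0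
    rw [hc, h0] at hd
    simp at hd
  · exact key g hc

theorem tr_of_order {y : SL(2, K)} (h3 : y * y * y = 1) (h1 : y ≠ 1) : y.1.trace = 1 := by
  rw [trace_fin_two]
  have hd := det_e y
  have h2 : (2 : K) = 0 := two0
  have e0 := congrArg (fun g : SL(2, K) => g.1 0 0) h3
  have e1 := congrArg (fun g : SL(2, K) => g.1 0 1) h3
  have e2 := congrArg (fun g : SL(2, K) => g.1 1 0) h3
  have e3 := congrArg (fun g : SL(2, K) => g.1 1 1) h3
  simp only [mul_e, one00, one01, one10, one11] at e0 e1 e2 e3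
  by_contra ht
  apply h1
  set a := y.1 0 0 with ha
  set b := y.1 0 1 with hb
  set c := y.1 1 0 with hc
  set d := y.1 1 1 with hd'
  have hs : (a + d - 1) ^ 2 ≠ 0 := pow_ne_zero _ (sub_ne_zero.2 ht)
  have hb0 : b = 0 := by
    apply mul_left_cancel₀ hs
    linear_combination e1 + b * hd + (b - b * (a + d)) * h2
  have hc0 : c = 0 := by
    apply mul_left_cancel₀ hs
    linear_combination e2 + c * hd + (c - c * (a + d)) * h2
  rw [hb0, hc0] at hd e0 e3
  have hne : a + d - 1 ≠ 0 := sub_ne_zero.2 ht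
  have ha1 : a = 1 := by
    have : (a + d - 1) * (a - 1) * a = 0 := by
      linear_combination e0 + (a - 1) * hd + (a - a ^ 2) * h2
    rcases mul_eq_zero.1 this with h | h
    · rcases mul_eq_zero.1 h with h | h
      · exact absurd h hne
      · linear_combination h
    · rw [h] at hd; simp at hd
  apply sl_ext <;> simp [← ha, ← hb, ← hc, ← hd', hb0, hc0, ha1]
  rw [ha1] at hd
  linear_combination hd

variable [Finite K]

theorem exists_sq (a : K) : ∃ t, t ^ 2 = a := by
  have : Function.Surjective (frobenius K 2) := Finite.surjective_of_injective (frobenius_inj K 2)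
  obtain ⟨t, ht⟩ := this a
  exact ⟨t, ht⟩

theorem conj_y0 {y : SL(2, K)} (hy : y.1.trace = 1) : ∃ g : SL(2, K), y * g = g * (uu 1 * nn) := by
  rw [trace_fin_two] at hy
  have hd := det_e y
  have h2 : (2 : K) = 0 := two0
  have key : ∀ p q : K, (y.1 0 0 * p + y.1 0 1 * q) * q - p * (y.1 1 0 * p + y.1 1 1 * q) ≠ 0 →
      ∃ g : SL(2, K), y * g = g * (uu 1 * nn) := by
    intro p q hne
    obtain ⟨t, ht⟩ := exists_sq ((y.1 0 0 * p + y.1 0 1 * q) * q - p * (y.1 1 0 * p + y.1 1 1 * q))⁻¹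
    obtain ⟨g, hg⟩ : ∃ g : SL(2, K), g.1 =
        !![t * (y.1 0 0 * p + y.1 0 1 * q), t * p; t * (y.1 1 0 * p + y.1 1 1 * q), t * q] := by
      refine ⟨⟨_, ?_⟩, rfl⟩
      rw [det_fin_two_of]
      have := mul_inv_cancel₀ hne
      rw [← ht] at this
      linear_combination this
    refine ⟨g, ?_⟩
    have e : y.1 1 1 = 1 - y.1 0 0 := by linear_combination hy
    rw [e] at hd
    apply sl_ext <;> simp [-SpecialLinearGroup.coe_mul, mul_e, uu_val, nn_val, hg, e]
    · linear_combination (-(t * p)) * hd + (-(t * p)) * h2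
    · ring
    · linear_combination (-(t * q)) * hd + (-(t * q)) * h2
    · ring
  by_cases hc : y.1 1 0 = 0
  · by_cases hb : y.1 0 1 = 0
    · refine key 1 1 ?_
      rw [hb, hc]
      intro h
      have : (1 : K) = 0 := by linear_combination h - hy + y.1 1 1 * h2
      exact one_ne_zero this
    · exact key 0 1 (by simpa using hb)
  · exact key 1 0 (by simpa using hc)

theorem conj_tr {y y' : SL(2, K)} (hy : y.1.trace = 1) (hy' : y'.1.trace = 1) :
    ∃ g : SL(2, K), y' = g * y * g⁻¹ := by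
  obtain ⟨g, hg⟩ := conj_y0 hy
  obtain ⟨g', hg'⟩ := conj_y0 hy'
  refine ⟨g' * g⁻¹, ?_⟩
  have h1 : y = g * (uu 1 * nn) * g⁻¹ := by rw [← hg]; group
  have h2 : y' = g' * (uu 1 * nn) * g'⁻¹ := by rw [← hg']; group
  rw [h1, h2]; group

theorem center_bot : Subgroup.center SL(2, K) = ⊥ := by
  rw [eq_bot_iff]
  intro g hg
  rw [Subgroup.mem_center_iff] at hg
  have h1 := hg (uu 1)
  have h2 := hg nn
  have hd := det_e g
  have e0 := congrArg (fun g : SL(2, K) => g.1 0 0) h1
  have e1 := congrArg (fun g : SL(2, K) => g.1 0 0) h2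
  have e2 := congrArg (fun g : SL(2, K) => g.1 0 1) h2
  simp [-SpecialLinearGroup.coe_mul, mul_e, uu_val, nn_val, hh_val] at e0 e1 e2
  rw [e0] at e1 hd
  rw [← e1, e2] at hd
  have : (g.1 0 0 - 1) ^ 2 = 0 := by linear_combination hd + (1 - g.1 0 0) * (two0 : (2 : K) = 0)
  have h00 : g.1 0 0 = 1 := by linear_combination pow_eq_zero_iff two_ne_zero |>.1 this
  rw [Subgroup.mem_bot]
  apply sl_ext <;> simp [h00, e0, ← e1, e2]

theorem simple_sl (h4 : 4 ≤ Nat.card K) : IsSimpleGroup SL(2, K) := by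
  have : IsSimpleGroup PSL(2, K) := Matrix.ProjectiveSpecialLinearGroup.rank_two_simple h4
  have e : PSL(2, K) ≃* SL(2, K) :=
    (QuotientGroup.quotientMulEquivOfEq center_bot).trans QuotientGroup.quotientBot
  exact e.symm.isSimpleGroup

end Cfsg.Agent.HigSL
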