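import Cfsg.Agent.HigSL.A

/-! A normal `2`-subgroup `Q` with quotient `SL(2, 2ⁿ)`, `n ≥ 2`, on which an element of order three
acts fixed-point-freely is abelian. -/

set_option autoImplicit false
set_option linter.unusedSectionVars false
open Matrix MatrixGroups
open scoped commutatorElement

namespace Cfsg.Agent.HigSL

variable {G : Type*} [Group G] {Q : Subgroup G} [hQn : Q.Normal]

/-- `y³ = 1` and `y` is fixed-point-free on `Q`. -/
def Valid (Q : Subgroup G) (y : G) : Prop := y * y * y = 1 ∧ ∀ q ∈ Q, y * q * y⁻¹ = q → q = 1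

theorem Valid.inv {y : G} (h : Valid Q y) : Valid Q y⁻¹ := by
  refine ⟨?_, fun q hq e => h.2 q hq ?_⟩
  · rw [← _root_.mul_inv_rev, ← _root_.mul_inv_rev, ← mul_assoc, h.1, inv_one]
  · conv_lhs => rw [← e]
    group

theorem Valid.conj {y : G} (h : Valid Q y) (g : G) : Valid Q (g * y * g⁻¹) := by
  refine ⟨?_, fun q hq e => ?_⟩
  · calc _ = g * (y * y * y) * g⁻¹ := by group
      _ = 1 := by rw [h.1]; group
  · have := h.2 (g⁻¹ * q * g) (by simpa using hQn.conj_mem q hq g⁻¹) (by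
      conv_rhs => rw [← e]
      group)
    calc q = g * (g⁻¹ * q * g) * g⁻¹ := by group
      _ = 1 := by rw [this]; group

variable [Finite G]

theorem Valid.cube {x : G} (h : Valid Q x) {r : G} (hr : r ∈ Q) : r * x * (r * x) * (r * x) = 1 := by
  let φ : Q → Q := fun q => ⟨(q : G)⁻¹ * (x * q * x⁻¹), Q.mul_mem (Q.inv_mem q.2) (hQn.conj_mem _ q.2 x)⟩
  have hφ : Function.Injective φ := by
    intro p q e
    have e' : (p : G)⁻¹ * (x * p * x⁻¹) = (q : G)⁻¹ * (x * q * x⁻¹) := congrArg Subtype.val e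
    have := h.2 (p * (q : G)⁻¹) (Q.mul_mem p.2 (Q.inv_mem q.2)) (by
      calc x * (p * (q : G)⁻¹) * x⁻¹ = p * ((p : G)⁻¹ * (x * p * x⁻¹)) * (x * (q : G)⁻¹ * x⁻¹) := by group
        _ = _ := by rw [e']; group)
    exact Subtype.ext (mul_inv_eq_one.1 this)
  obtain ⟨q, hq⟩ := Finite.surjective_of_injective hφ ⟨r, hr⟩
  have e : (q : G)⁻¹ * (x * q * x⁻¹) = r := congrArg Subtype.val hq
  rw [← e]
  calc _ = (q : G)⁻¹ * (x * x * x) * q := by group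
    _ = 1 := by rw [h.1]; group

theorem Valid.comm {x : G} (h : Valid Q x) {r : G} (hr : r ∈ Q) :
    r * (x * r * x⁻¹) = x * r * x⁻¹ * r := by
  have h1 := h.cube hr
  have h2 := h.inv.cube hr
  have h3 := h.1
  calc r * (x * r * x⁻¹) = (r * x * (r * x) * (r * x)) * (x⁻¹ * r⁻¹ * x) * (x * x * x)⁻¹ := by group
    _ = x⁻¹ * r⁻¹ * x := by rw [h1, h3]; group
    _ = x⁻¹ * r⁻¹ * x * (r * x⁻¹ * (r * x⁻¹) * (r * x⁻¹))⁻¹ * (r * x⁻¹ * (r * x⁻¹) * (r * x⁻¹)) := by group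
    _ = x⁻¹ * (x * x * x) * r⁻¹ * x := by rw [h3]; group
    _ = x * (r * x⁻¹ * (r * x⁻¹) * (r * x⁻¹)) * (x * r⁻¹ * x) := by rw [h2]; group
    _ = _ := by group

/-- Elements of the second centre of `Q`. -/
def Zt (Q : Subgroup G) (w : G) : Prop := w ∈ Q ∧ ∀ v ∈ Q, ∀ q ∈ Q, ⁅v, w⁆ * q = q * ⁅v, w⁆

theorem Zt.conj {w : G} (h : Zt Q w) (g : G) : Zt Q (g * w * g⁻¹) := by
  refine ⟨hQn.conj_mem _ h.1 g, fun v hv q hq => ?_⟩
  have := h.2 (g⁻¹ * v * g) (by simpa using hQn.conj_mem v hv g⁻¹) (g⁻¹ * q * g)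
    (by simpa using hQn.conj_mem q hq g⁻¹)
  simp only [commutatorElement_def] at this ⊢
  calc _ = g * (g⁻¹ * v * g * w * (g⁻¹ * v * g)⁻¹ * w⁻¹ * (g⁻¹ * q * g)) * g⁻¹ := by group
    _ = _ := by rw [this]; group

theorem polar {y w v : G} (hy : Valid Q y) (hw : Zt Q w) (hv : v ∈ Q) :
    ⁅y * v * y⁻¹, w⁆ = ⁅v, y * w * y⁻¹⁆ := by
  have h1 := hy.comm hv
  have h2 := hy.comm hw.1
  have h3 := hy.comm (Q.mul_mem hv hw.1)
  have hw' := hw.conj y
  have hv' := hQn.conj_mem _ hv y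
  rw [show y * (v * w) * y⁻¹ = y * v * y⁻¹ * (y * w * y⁻¹) by group] at h3
  generalize y * v * y⁻¹ = v' at *
  generalize y * w * y⁻¹ = w' at *
  have c1 := hw.2 v' hv' v hv
  have c2 := hw'.2 v hv v' hv'
  have e1 : v * w * (v' * w') = ⁅v', w⁆⁻¹ * (v * v' * (w * w')) := by
    rw [eq_inv_mul_iff_mul_eq, ← mul_assoc, ← mul_assoc, ← mul_assoc, c1, commutatorElement_def]
    group
  have e2 : v' * w' * (v * w) = ⁅v, w'⁆⁻¹ * (v' * v * (w' * w)) := by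
    rw [eq_inv_mul_iff_mul_eq, ← mul_assoc, ← mul_assoc, ← mul_assoc, c2, commutatorElement_def]
    group
  rw [e1, e2, h1, h2] at h3
  exact inv_injective (mul_right_cancel h3)

theorem twist {y w v : G} (hy : Valid Q y) (hw : Zt Q w) (hv : v ∈ Q) :
    ⁅y * v * y⁻¹, w⁆ = y⁻¹ * ⁅v, w⁆ * y := by
  have h1 := polar hy.inv hw (by simpa using hQn.conj_mem v hv y⁻¹ : y⁻¹ * v * y ∈ Q)
  have h3 : y⁻¹ * y⁻¹ = y := by
    calc y⁻¹ * y⁻¹ = y⁻¹ * y⁻¹ * (y * y * y) := by rw [hy.1, mul_one]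
      _ = y := by group
  have h4 : y⁻¹ * (y⁻¹ * v * y) * y⁻¹⁻¹ = y * v * y⁻¹ := by
    calc _ = (y⁻¹ * y⁻¹) * v * (y⁻¹ * y⁻¹)⁻¹ := by simp only [_root_.mul_inv_rev, inv_inv, mul_assoc]
      _ = _ := by rw [h3]
  rw [h4] at h1
  rw [h1]
  simp only [commutatorElement_def]
  group

theorem comm_fix {y z w v : G} (hy : Valid Q y) (hz : Valid Q z) (hw : Zt Q w) (hv : v ∈ Q) :
    (y * z * y⁻¹ * y⁻¹ * z⁻¹ * y) * ⁅v, w⁆ = ⁅v, w⁆ * (y * z * y⁻¹ * y⁻¹ * z⁻¹ * y) := by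
  have h1 := twist (hz.conj y) hw hv
  have hv1 := hQn.conj_mem _ hv y⁻¹
  have hv2 := hQn.conj_mem _ hv1 z
  have h2 := twist hy hw hv2
  rw [twist hz hw hv1, twist hy.inv hw hv] at h2
  rw [show y * z * y⁻¹ * v * (y * z * y⁻¹)⁻¹ = y * (z * (y⁻¹ * v * y⁻¹⁻¹) * z⁻¹) * y⁻¹ by group, h2] at h1
  generalize ⁅v, w⁆ = t at *
  calc _ = (y * z * y⁻¹) * (y⁻¹ * (z⁻¹ * (y⁻¹⁻¹ * t * y⁻¹) * z) * y) * (y⁻¹ * z⁻¹ * y) := by group
    _ = _ := by rw [h1]; group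

variable {K : Type*} [Field K] [CharP K 2] [Finite K]

theorem exists_valid (π : G →* SL(2, K)) (hs : Function.Surjective π) {x : G} (hx : Valid Q x)
    (hx1 : π x ≠ 1) (t : SL(2, K)) (ht : t.1.trace = 1) : ∃ y, Valid Q y ∧ π y = t := by
  have h1 : (π x).1.trace = 1 := tr_of_order (by rw [← map_mul, ← map_mul, hx.1, map_one]) hx1
  obtain ⟨g, hg⟩ := conj_tr h1 ht
  obtain ⟨g, rfl⟩ := hs g
  exact ⟨_, hx.conj g, by simp [hg]⟩

theorem abelian (hQ : IsPGroup 2 Q) (π : G →* SL(2, K)) (hs : Function.Surjective π)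
    (hk : π.ker = Q) (h4 : 4 ≤ Nat.card K) (h4' : ∃ a : K, a ≠ 0 ∧ a + 1 ≠ 0) {x : G}
    (hx : Valid Q x) (hx1 : π x ≠ 1) : ∀ p ∈ Q, ∀ q ∈ Q, p * q = q * p := by
  by_contra hne
  have : Fact (Nat.Prime 2) := ⟨Nat.prime_two⟩
  have hnt : Nontrivial (Q ⧸ Subgroup.center Q) := by
    rw [QuotientGroup.nontrivial_iff]
    intro h
    apply hne
    intro p hp q hq
    have : (⟨q, hq⟩ : Q) ∈ Subgroup.center Q := h ▸ Subgroup.mem_top _
    exact congrArg Subtype.val (Subgroup.mem_center_iff.1 this ⟨p, hp⟩)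
  have hc := (hQ.to_quotient (Subgroup.center Q)).center_nontrivial
  obtain ⟨⟨wb, hwb⟩, hw1⟩ := exists_ne (1 : Subgroup.center (Q ⧸ Subgroup.center Q))
  obtain ⟨w, rfl⟩ := QuotientGroup.mk_surjective wb
  have hw : Zt Q w := by
    refine ⟨w.2, fun v hv q hq => ?_⟩
    have h1 : ⁅(⟨v, hv⟩ : Q), w⁆ ∈ Subgroup.center Q := by
      rw [← QuotientGroup.eq_one_iff, ← QuotientGroup.mk'_apply, map_commutatorElement,
        commutatorElement_eq_one_iff_mul_comm]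
      exact Subgroup.mem_center_iff.1 hwb _
    exact (congrArg Subtype.val (Subgroup.mem_center_iff.1 h1 ⟨q, hq⟩)).symm
  let N : Subgroup G := Subgroup.centralizer {t | ∃ v ∈ Q, ∃ w, Zt Q w ∧ t = ⁅v, w⁆}
  have hNn : N.Normal := by
    refine ⟨fun g hg y => ?_⟩
    rintro _ ⟨v, hv, w, hw, rfl⟩
    have := hg _ ⟨_, hQn.conj_mem v hv y⁻¹, _, hw.conj y⁻¹, rfl⟩
    simp only [commutatorElement_def] at this ⊢
    calc _ = y * (y⁻¹ * v * y⁻¹⁻¹ * (y⁻¹ * w * y⁻¹⁻¹) * (y⁻¹ * v * y⁻¹⁻¹)⁻¹ * (y⁻¹ * w * y⁻¹⁻¹)⁻¹ * g) * y⁻¹ := by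
          group
      _ = _ := by rw [this]; group
  have hQN : π.ker ≤ N := by
    rw [hk]
    rintro q hq _ ⟨v, hv, w, hw, rfl⟩
    exact hw.2 v hv q hq
  have := simple_sl h4
  rcases IsSimpleGroup.eq_bot_or_eq_top_of_normal (N.map π) (hNn.map π hs) with h | h
  · obtain ⟨a, ha, ha1⟩ := h4'
    obtain ⟨y, hy, hy'⟩ := exists_valid π hs hx hx1 _ (tr_un 1 one_ne_zero)
    obtain ⟨z, hz, hz'⟩ := exists_valid π hs hx hx1 _ (tr_un a ha)
    have h1 : y * z * y⁻¹ * y⁻¹ * z⁻¹ * y ∈ N := by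
      rintro _ ⟨v, hv, w, hw, rfl⟩
      exact (comm_fix hy hz hw hv).symm
    have h2 : π (y * z * y⁻¹ * y⁻¹ * z⁻¹ * y) = 1 := by
      rw [← Subgroup.mem_bot, ← h]; exact Subgroup.mem_map_of_mem π h1
    have h3 : π y * π y * π y = 1 := by rw [← map_mul, ← map_mul, hy.1, map_one]
    simp only [map_mul, map_inv] at h2
    have h5 : π z * π y = π y * π z := by
      calc π z * π y = (π y)⁻¹ * (π y * π z * (π y)⁻¹ * (π y)⁻¹ * (π z)⁻¹ * π y) * (π y)⁻¹ * π z *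
            (π y * π y * π y) := by group
        _ = (π y * π y * π y) * (π y)⁻¹ * (π y)⁻¹ * π z := by rw [h2, h3]; group
        _ = _ := by group
    rw [hy', hz'] at h5
    have := congrArg (fun g : SL(2, K) => g.1 0 1) h5
    simp [-SpecialLinearGroup.coe_mul, mul_e, uu_val, nn_val, hh_val, ha] at this
    apply ha1
    rw [← this]
    exact CharTwo.add_self_eq_zero _
  · have hx' : x ∈ N := by
      rw [← Subgroup.comap_map_eq_self hQN, h]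
      trivial
    apply hw1
    apply Subtype.ext
    change ((w : Q ⧸ Subgroup.center Q)) = 1
    rw [QuotientGroup.eq_one_iff, Subgroup.mem_center_iff]
    intro v
    have h1 := hx' _ ⟨v, v.2, w, hw, rfl⟩
    have h2 : ⁅(v : G), (w : G)⁆ = 1 := hx.2 _ (by
      rw [commutatorElement_def]
      exact Q.mul_mem (Q.mul_mem (Q.mul_mem v.2 w.2) (Q.inv_mem v.2)) (Q.inv_mem w.2)) (by
      rw [← h1]; group)
    exact Subtype.ext (commutatorElement_eq_one_iff_mul_comm.1 h2)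

end Cfsg.Agent.HigSL
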