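import Cfsg.Agent.HigSL.A

/-! A finite abelian `2`-group on which `SL(2, K)`, `|K| = 2ⁿ ≥ 4`, acts with the elements of order
three acting fixed-point-freely is a direct sum of natural modules (`exists_coord`). -/

set_option autoImplicit false
set_option linter.unusedSectionVars false
set_option linter.unusedSimpArgs false
open Matrix MatrixGroups

namespace Cfsg.Agent.HigSL

/-- The elements of trace one act fixed-point-freely. -/
def Fpf (K : Type*) [Field K] (V : Type*) [AddCommGroup V] [DistribMulAction SL(2, K) V] : Prop :=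
  ∀ y : SL(2, K), y.1.trace = 1 → ∀ z : V, y • z = z → z = 0

/-- The fixed points of the upper unitriangular group. -/
def WW (K : Type*) [Field K] (V : Type*) [AddCommGroup V] [DistribMulAction SL(2, K) V] :
    AddSubgroup V where
  carrier := {w | ∀ d : K, uu d • w = w}
  zero_mem' := fun d => smul_zero _
  add_mem' := fun ha hb d => by rw [smul_add, ha d, hb d]
  neg_mem' := fun ha d => by rw [smul_neg, ha d]

variable {K : Type*} [Field K] [CharP K 2] {V : Type*} [AddCommGroup V]
  [DistribMulAction SL(2, K) V]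

theorem mem_WW {w : V} : w ∈ WW K V ↔ ∀ d : K, uu d • w = w := Iff.rfl

theorem hh_mem (a : K) (ha : a ≠ 0) {w : V} (hw : w ∈ WW K V) : hh a ha • w ∈ WW K V := by
  intro d
  rw [← mul_smul, uu_hh, mul_smul, hw]

theorem nn_nn_smul (z : V) : (nn : SL(2, K)) • (nn : SL(2, K)) • z = z := by
  rw [← mul_smul, nn_nn, one_smul]

theorem uu_uu_smul (d : K) (z : V) : uu d • uu d • z = z := by
  rw [← mul_smul, uu_mul, CharTwo.add_self_eq_zero, uu_zero, one_smul]

theorem hnh_smul (a : K) (ha : a ≠ 0) (z : V) :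
    hh a ha • (nn : SL(2, K)) • hh a ha • z = (nn : SL(2, K)) • z := by
  rw [← mul_smul, ← mul_smul, hnh]

theorem rel3 (H : Fpf K V) (y : SL(2, K)) (hy : y.1.trace = 1) (z : V) :
    z + y • z + (y * y) • z = 0 := by
  apply H y hy
  rw [smul_add, smul_add, ← mul_smul, ← mul_smul, ← mul_assoc, cube y hy, one_smul]
  abel

theorem R0 (H : Fpf K V) (a : K) (ha : a ≠ 0) (z : V) :
    z + uu a • hh a ha • (nn : SL(2, K)) • z + hh a ha • (nn : SL(2, K)) • uu a • z = 0 := by
  have := rel3 H _ (tr_un a ha) z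
  rw [sq_un] at this
  simpa only [mul_smul] using this

theorem R2 (H : Fpf K V) (a : K) (ha : a ≠ 0) {w : V} (hw : w ∈ WW K V) :
    uu a • (nn : SL(2, K)) • w = -((nn : SL(2, K)) • w) - hh a ha • w := by
  have := R0 H a ha (hh a ha • w)
  rw [hh_mem a ha hw a, hnh_smul] at this
  linear_combination (norm := abel1) this

theorem inter (H : Fpf K V) {z : V} (hz : z ∈ WW K V) (hn : (nn : SL(2, K)) • z ∈ WW K V) :
    z = 0 := by
  set y : SL(2, K) := uu 1 * hh 1 one_ne_zero * nn with hy
  have ht := tr_un (1 : K) one_ne_zero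
  have h2 : (y * y) • z = z := by
    rw [hy, hh_one]
    simp only [mul_smul, one_smul]
    rw [hn 1, nn_nn_smul, hz 1]
  apply H y ht
  conv_lhs => rw [← h2, ← mul_smul, ← mul_assoc, cube y ht, one_smul]

theorem R3 (H : Fpf K V) (a b : K) (ha : a ≠ 0) (hb : b ≠ 0) (hab : a + b ≠ 0) {w : V}
    (hw : w ∈ WW K V) : (nn : SL(2, K)) • (w + w) =
      -(hh (a + b) hab • w) - hh a ha • w + hh b hb • w := by
  have h1 := R2 H (a + b) hab hw
  rw [← uu_mul, mul_smul, R2 H b hb hw, smul_sub, smul_neg, R2 H a ha hw, hh_mem b hb hw a] at h1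
  rw [smul_add]
  linear_combination (norm := abel1) h1

theorem two_W (H : Fpf K V) (h4 : ∃ a : K, a ≠ 0 ∧ a + 1 ≠ 0) {w : V} (hw : w ∈ WW K V) :
    w + w = 0 := by
  obtain ⟨a, ha, ha1⟩ := h4
  apply inter H (add_mem hw hw)
  rw [R3 H a 1 ha one_ne_zero ha1 hw]
  exact add_mem (sub_mem (neg_mem (hh_mem _ _ hw)) (hh_mem _ _ hw)) (hh_mem _ _ hw)

theorem hh_add (H : Fpf K V) (a b : K) (ha : a ≠ 0) (hb : b ≠ 0) (hab : a + b ≠ 0) {w : V}
    (hw : w ∈ WW K V) (h4 : ∃ a : K, a ≠ 0 ∧ a + 1 ≠ 0) :
    hh (a + b) hab • w = hh a ha • w + hh b hb • w := by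
  have h1 := R3 H a b ha hb hab hw
  rw [two_W H h4 hw, smul_zero] at h1
  have h2 := two_W H h4 (hh_mem a ha hw)
  linear_combination (norm := abel1) h1 - h2

theorem Yrel (H : Fpf K V) (a : K) (ha : a ≠ 0) (ha1 : a + 1 ≠ 0) (v : V) :
    uu (a + 1) • (nn : SL(2, K)) • v + uu (a / (a + 1)) • (nn : SL(2, K)) • v =
      -(uu a • v - hh a ha • uu (1 : K) • v + hh (a / (a + 1)) (div_ne_zero ha ha1) • v) := by
  have A : ∀ (a : K) (ha : a ≠ 0) (z : V), (hh a ha * nn * uu a * (hh a ha * nn)) • z =
      -(hh a ha • (nn : SL(2, K)) • z) - uu a • z := by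
    intro a ha z
    have := R0 H a ha (hh a ha • (nn : SL(2, K)) • z)
    rw [hnh_smul, nn_nn_smul] at this
    simp only [mul_smul]
    linear_combination (norm := abel1) this
  have B : ∀ z : V, ((nn : SL(2, K)) * uu (1 : K) * nn) • z = -((nn : SL(2, K)) • z) - uu (1 : K) • z := by
    intro z
    have := A 1 one_ne_zero z
    simpa only [hh_one, one_mul, one_smul] using this
  have C : (nn : SL(2, K)) • uu (1 : K) • (nn : SL(2, K)) • v =
      -((nn : SL(2, K)) • v) - uu (1 : K) • v := by
    have := B v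
    simpa only [mul_smul] using this
  have h1 := congrArg (fun g : SL(2, K) => g • (nn : SL(2, K)) • v) (lower_mul a ha ha1)
  rw [mul_smul, A, A, B, nn_nn_smul] at h1
  simp only [smul_sub, smul_neg, C] at h1
  rw [← uu_mul, mul_smul]
  linear_combination (norm := abel1) h1

/-- The hypotheses under which `WW K V` is a vector space over `K`. -/
class Hy (K : Type*) [Field K] (V : Type*) [AddCommGroup V] [DistribMulAction SL(2, K) V] : Prop where
  fpf : Fpf K V
  four : ∃ a : K, a ≠ 0 ∧ a + 1 ≠ 0

open Classical in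
/-- The scalar action on `WW K V` through the diagonal matrices. -/
noncomputable instance smulW : SMul K (WW K V) where
  smul a w := if h : a = 0 then 0 else ⟨hh a h • (w : V), hh_mem a h w.2⟩

theorem smul_val (a : K) (ha : a ≠ 0) (w : WW K V) : ((a • w : WW K V) : V) = hh a ha • (w : V) := by
  classical
  exact congrArg Subtype.val (dif_neg ha)

theorem smul_zero' (w : WW K V) : (0 : K) • w = 0 := by
  classical
  exact dif_pos rfl

variable [hy : Hy K V]

theorem two_W' (w : WW K V) : w + w = 0 := Subtype.ext (two_W hy.fpf hy.four w.2)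

/-- `WW K V` as a vector space over `K`. -/
noncomputable instance modW : Module K (WW K V) where
  one_smul w := Subtype.ext (by rw [smul_val 1 one_ne_zero, hh_one, one_smul])
  mul_smul a b w := by
    by_cases ha : a = 0
    · rw [ha, zero_mul, smul_zero', smul_zero']
    by_cases hb : b = 0
    · rw [hb, mul_zero, smul_zero']
      exact Subtype.ext (by rw [smul_val a ha]; simp)
    exact Subtype.ext (by rw [smul_val _ (mul_ne_zero ha hb), smul_val a ha, smul_val b hb,
      ← mul_smul, hh_mul])
  smul_zero a := by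
    by_cases ha : a = 0
    · rw [ha, smul_zero']
    exact Subtype.ext (by rw [smul_val a ha]; simp)
  smul_add a w w' := by
    by_cases ha : a = 0
    · rw [ha, smul_zero', smul_zero', smul_zero', add_zero]
    exact Subtype.ext (by
      rw [AddSubgroup.coe_add, smul_val a ha, smul_val a ha, smul_val a ha, AddSubgroup.coe_add,
        smul_add])
  add_smul a b w := by
    by_cases ha : a = 0
    · rw [ha, zero_add, smul_zero', zero_add]
    by_cases hb : b = 0
    · rw [hb, add_zero, smul_zero', add_zero]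
    by_cases hab : a + b = 0
    · have : b = a := by linear_combination hab - a * (two0 : (2 : K) = 0)
      rw [hab, smul_zero', this, two_W']
    exact Subtype.ext (by
      rw [AddSubgroup.coe_add, smul_val a ha, smul_val b hb, smul_val _ hab,
        hh_add hy.fpf a b ha hb hab w.2 hy.four])
  zero_smul := smul_zero'

theorem R2' (d : K) (w : WW K V) : uu d • (nn : SL(2, K)) • (w : V) =
    (nn : SL(2, K)) • (w : V) + ((d • w : WW K V) : V) := by
  by_cases hd : d = 0
  · rw [hd, uu_zero, one_smul, zero_smul]; simp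
  rw [R2 hy.fpf d hd w.2, smul_val d hd]
  have h1 := two_W hy.fpf hy.four (hh_mem d hd w.2)
  have h2 := congrArg (fun z : V => (nn : SL(2, K)) • z) (two_W hy.fpf hy.four w.2)
  simp only [smul_add, smul_zero] at h2
  linear_combination (norm := abel1) -h1 - h2

theorem act (g : SL(2, K)) : ∀ w₁ w₂ : WW K V, g • ((w₁ : V) + (nn : SL(2, K)) • (w₂ : V)) =
    ((g.1 0 0 • w₁ + g.1 0 1 • w₂ : WW K V) : V) +
      (nn : SL(2, K)) • ((g.1 1 0 • w₁ + g.1 1 1 • w₂ : WW K V) : V) := by
  induction g using bruhat with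
  | hu d =>
    intro w₁ w₂
    rw [smul_add, R2', w₁.2 d]
    simp [uu_val]
    abel
  | hn =>
    intro w₁ w₂
    rw [smul_add, nn_nn_smul]
    simp [nn_val, add_comm]
  | hh' a ha =>
    intro w₁ w₂
    have : hh a ha • (nn : SL(2, K)) • (w₂ : V) = (nn : SL(2, K)) • hh a⁻¹ (inv_ne_zero ha) • (w₂ : V) := by
      rw [← mul_smul, ← mul_smul, nn_hh]
      simp only [inv_inv]
    rw [smul_add, this, ← smul_val, ← smul_val]
    simp [hh_val]
  | hm g g' hg hg' =>
    intro w₁ w₂
    rw [mul_smul, hg', hg]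
    simp only [mul_e]
    congr 2
    · module
    · congr 1
      module

theorem lin_of [Finite K] (v : V) (f : K → WW K V) (hf : ∀ d, uu d • v = v + f d) (d : K) :
    f d = d • f 1 := by
  have h2 : (2 : K) = 0 := two0
  have fadd : ∀ d e, f (d + e) = f d + f e := by
    intro d e
    apply Subtype.ext
    have := hf (d + e)
    rw [← uu_mul, mul_smul, hf e, smul_add, hf d, (f e).2 d] at this
    rw [AddSubgroup.coe_add]
    linear_combination (norm := abel1) -this
  have f0 : f 0 = 0 := by simpa using fadd 0 0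
  have hfh : ∀ (m : K) (hm : m ≠ 0) (d : K), uu d • hh m hm • v = hh m hm • v + (m • f (d / m ^ 2) : WW K V) := by
    intro m hm d
    rw [← mul_smul, uu_hh, mul_smul, hf, smul_add, smul_val m hm]
  -- the main relation
  have main : ∀ (a : K), a ≠ 0 → a + 1 ≠ 0 → a ^ 2 + a + 1 ≠ 0 → ∀ s : K,
      f s - a • f (s / a ^ 2) + (a / (a + 1)) • f (s / (a / (a + 1)) ^ 2) = 0 := by
    intro a ha ha1 ha2 s
    by_cases hs : s = 0
    · simp [hs, f0]
    have he : a / (a + 1) ≠ 0 := div_ne_zero ha ha1
    set e := a / (a + 1) with hedef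
    have hc : a + 1 + e ≠ 0 := by
      intro h
      apply ha2
      have : e * (a + 1) = a := by rw [hedef]; field_simp
      linear_combination (a + 1) * h - this - a * h2
    obtain ⟨m, hm⟩ := exists_sq ((a + 1 + e) / s)
    have hm0 : m ≠ 0 := by
      rintro rfl
      exact div_ne_zero hc hs (by rw [← hm]; ring)
    have hcm : (a + 1 + e) / m ^ 2 = s := by rw [hm]; field_simp
    have Y := Yrel hy.fpf a ha ha1 (hh m hm0 • v)
    have Y2 := congrArg (fun z : V => uu (a + 1 + e) • z) Y
    simp only [smul_add, ← hedef] at Y2 Y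
    rw [← mul_smul (uu _) (uu _), ← mul_smul (uu _) (uu _), uu_mul, uu_mul,
      show a + 1 + e + (a + 1) = e by linear_combination (a + 1) * h2,
      show a + 1 + e + e = a + 1 by linear_combination e * h2, add_comm, Y] at Y2
    have e1 : hh a ha • uu (1 : K) • hh m hm0 • v =
        hh (a * m) (mul_ne_zero ha hm0) • v + (a • m • f (1 / m ^ 2) : WW K V) := by
      rw [hfh, smul_add, ← mul_smul, hh_mul, smul_val a ha]
    have e2 : hh e he • hh m hm0 • v = hh (e * m) (mul_ne_zero he hm0) • v := by
      rw [← mul_smul, hh_mul]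
    rw [e1, e2, hfh] at Y2
    simp only [smul_neg, smul_add, smul_sub, hfh, (WW K V).coe_add] at Y2
    rw [(m • f (a / m ^ 2)).2, (a • m • f (1 / m ^ 2)).2, hcm,
      show (a + 1 + e) / (a * m) ^ 2 = s / a ^ 2 by rw [← hcm]; field_simp,
      show (a + 1 + e) / (e * m) ^ 2 = s / e ^ 2 by rw [← hcm]; field_simp] at Y2
    have Y3 : m • f s - (a * m) • f (s / a ^ 2) + (e * m) • f (s / e ^ 2) = 0 := by
      apply Subtype.ext
      simp only [AddSubgroup.coe_add, AddSubgroup.coe_sub, AddSubgroup.coe_zero]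
      linear_combination (norm := abel1) Y2
    have : m • (f s - a • f (s / a ^ 2) + e • f (s / e ^ 2)) = 0 := by
      rw [← Y3]; module
    exact (smul_eq_zero.1 this).resolve_left hm0
  have sqr : ∀ t : K, t ^ 2 + t + 1 ≠ 0 → ∀ s, f (s * t ^ 2) = t ^ 2 • f s := by
    intro t ht s
    by_cases h0 : t = 0
    · simp [h0, f0]
    by_cases h1 : t + 1 = 0
    · have : t = 1 := by linear_combination h1 - h2
      simp [this]
    have ha1 : t⁻¹ + 1 ≠ 0 := by
      intro h; apply h1
      have : t⁻¹ * t = 1 := inv_mul_cancel₀ h0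
      linear_combination t * h - this
    have := main t⁻¹ (inv_ne_zero h0) ha1 (by
      intro h; apply ht
      have : t⁻¹ * t = 1 := inv_mul_cancel₀ h0
      linear_combination t ^ 2 * h - (t⁻¹ * t + 1 + t) * this) s
    have e1 : t⁻¹ / (t⁻¹ + 1) = (t + 1)⁻¹ := by
      rw [div_eq_iff ha1]
      field_simp
      ring
    rw [e1, show s / t⁻¹ ^ 2 = s * t ^ 2 by field_simp,
      show s / (t + 1)⁻¹ ^ 2 = s * t ^ 2 + s by field_simp; linear_combination s * t * h2, fadd] at this
    have h3 := congrArg (fun w : WW K V => (t * (t + 1)) • w) this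
    simp only [smul_add, smul_sub, smul_smul, smul_zero] at h3
    rw [show t * (t + 1) * t⁻¹ = t + 1 by field_simp, show t * (t + 1) * (t + 1)⁻¹ = t by field_simp] at h3
    have h4 : (2 : K) • f s = 0 := by rw [h2, zero_smul]
    linear_combination (norm := module) -h3 + t • h4
  by_cases hex : ∃ t : K, t ≠ 0 ∧ t + 1 ≠ 0 ∧ t ^ 2 + t + 1 ≠ 0
  · obtain ⟨t₁, h0, h1, ht₁⟩ := hex
    obtain ⟨t, rfl⟩ := exists_sq d
    by_cases ht : t ^ 2 + t + 1 = 0
    · have : (t + t₁) ^ 2 + (t + t₁) + 1 ≠ 0 := by
        intro h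
        apply mul_ne_zero h0 h1
        linear_combination h - ht - t * t₁ * h2
      have e1 := sqr _ this 1
      have e2 := sqr _ ht₁ 1
      rw [show t ^ 2 = 1 * (t + t₁) ^ 2 + 1 * t₁ ^ 2 by linear_combination (-(t * t₁) - t₁ ^ 2) * h2,
        fadd, e1, e2]
      module
    · simpa using sqr t ht 1
  · by_cases ha : d = 0
    · simp [ha, f0]
    by_cases ha1 : d + 1 = 0
    · have : d = 1 := by linear_combination ha1 - h2
      simp [this]
    have ha2 : d ^ 2 + d + 1 = 0 := by
      by_contra h
      exact hex ⟨d, ha, ha1, h⟩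
    have he : d / (d + 1) = d * d := by
      field_simp
      linear_combination (-1) * ha2 + h2
    have he' : d + 1 = d * d := by linear_combination ha2 - d ^ 2 * h2
    have Y := Yrel hy.fpf d ha ha1 v
    have ht : (hh d ha).1.trace = 1 := by
      simp only [trace_fin_two, hh_val]
      simp
      field_simp
      linear_combination ha2 - d * h2
    have R := rel3 hy.fpf _ ht v
    rw [hh_mul] at R
    simp only [he] at Y
    rw [show uu (d + 1) = uu (d * d) by rw [he'], hf, hf, smul_add, ← smul_val d ha] at Y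
    have hv2 : v + v ∈ WW K V := by
      intro c
      rw [smul_add, hf]
      have := two_W hy.fpf hy.four (f c).2
      linear_combination (norm := abel1) this
    have hn2 : uu (d * d) • (nn : SL(2, K)) • (v + v) =
        hh d ha • (v + v) - f d + (d • f 1 : WW K V) := by
      simp only [smul_add]
      linear_combination (norm := abel1) Y - R
    have hmem : uu (d * d) • (nn : SL(2, K)) • (v + v) ∈ WW K V := by
      rw [hn2]
      exact add_mem (sub_mem (hh_mem _ _ hv2) (f d).2) (d • f 1).2
    have hmem2 : (nn : SL(2, K)) • (v + v) ∈ WW K V := by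
      rw [← uu_uu_smul (d * d) ((nn : SL(2, K)) • (v + v)), hmem]
      exact hmem
    have := inter hy.fpf hv2 hmem2
    rw [this] at hn2
    simp only [smul_zero] at hn2
    apply Subtype.ext
    linear_combination (norm := abel1) hn2

end Cfsg.Agent.HigSL
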