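import Cfsg.Agent.HigSL.C

/-! `V = W ⊕ n W` and coordinates identifying `V` with a direct sum of natural `SL(2, K)`-modules. -/

set_option autoImplicit false
set_option linter.unusedSectionVars false
set_option linter.unusedSimpArgs false
open Matrix MatrixGroups

namespace Cfsg.Agent.HigSL

variable {K : Type*} [Field K] [CharP K 2] {V : Type*} [AddCommGroup V]
  [DistribMulAction SL(2, K) V] [hy : Hy K V]

/-- The map `(w₁, w₂) ↦ w₁ + n w₂`. -/
def LL (K : Type*) [Field K] [CharP K 2] (V : Type*) [AddCommGroup V] [DistribMulAction SL(2, K) V] :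
    WW K V × WW K V →+ V where
  toFun p := (p.1 : V) + (nn : SL(2, K)) • (p.2 : V)
  map_zero' := by simp
  map_add' p q := by
    simp only [Prod.fst_add, Prod.snd_add, AddSubgroup.coe_add, smul_add]
    abel

theorem LL_apply (p : WW K V × WW K V) : LL K V p = (p.1 : V) + (nn : SL(2, K)) • (p.2 : V) := rfl

theorem LL_inj : Function.Injective (LL K V) := by
  rw [injective_iff_map_eq_zero]
  intro p hp
  rw [LL_apply] at hp
  have h1 : (nn : SL(2, K)) • (p.2 : V) = -(p.1 : V) := by linear_combination (norm := abel1) hp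
  have h2 : (p.2 : V) = 0 := inter hy.fpf p.2.2 (by rw [h1]; exact neg_mem p.1.2)
  rw [h2, smul_zero, add_zero] at hp
  exact Prod.ext (Subtype.ext hp) (Subtype.ext h2)

theorem range_inv (g : SL(2, K)) {v : V} (hv : v ∈ (LL K V).range) : g • v ∈ (LL K V).range := by
  obtain ⟨p, rfl⟩ := hv
  exact ⟨(_, _), (act g p.1 p.2).symm⟩

theorem LL_surj [Finite K] [Finite V] {m : ℕ} (hV : Nat.card V = 2 ^ m) :
    Function.Surjective (LL K V) := by
  rw [← AddMonoidHom.range_eq_top]
  by_contra hne
  set V₀ := (LL K V).range with hV₀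
  let act' : MulAction (Multiplicative K) (V ⧸ V₀) :=
    { smul := fun d q => QuotientAddGroup.map V₀ V₀
        (DistribSMul.toAddMonoidHom V (uu (Multiplicative.toAdd d)))
        (fun v hv => range_inv _ hv) q
      one_smul := fun q => by
        induction q using QuotientAddGroup.induction_on with
        | H v =>
          change ((uu (0 : K) • v : V) : V ⧸ V₀) = v
          rw [uu_zero, one_smul]
      mul_smul := fun d e q => by
        induction q using QuotientAddGroup.induction_on with
        | H v =>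
          change ((uu (d.toAdd + e.toAdd) • v : V) : V ⧸ V₀) = ((uu d.toAdd • uu e.toAdd • v : V) : V ⧸ V₀)
          rw [← uu_mul, mul_smul] }
  have hP : IsPGroup 2 (Multiplicative K) := by
    intro d
    refine ⟨1, ?_⟩
    rw [pow_one, pow_two]
    exact congrArg Multiplicative.ofAdd (CharTwo.add_self_eq_zero d.toAdd)
  have hdvd : 2 ∣ Nat.card (V ⧸ V₀) := by
    have h1 : Nat.card (V ⧸ V₀) ∣ 2 ^ m := hV ▸ AddSubgroup.card_quotient_dvd_card V₀
    obtain ⟨k, -, hk⟩ := (Nat.dvd_prime_pow Nat.prime_two).1 h1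
    rw [hk]
    apply dvd_pow_self
    rintro rfl
    exact hne (AddSubgroup.index_eq_one.1 hk)
  have h0 : (0 : V ⧸ V₀) ∈ MulAction.fixedPoints (Multiplicative K) (V ⧸ V₀) := by
    intro d
    change ((uu d.toAdd • (0 : V) : V) : V ⧸ V₀) = ((0 : V) : V ⧸ V₀)
    rw [smul_zero]
  have : Fact (Nat.Prime 2) := ⟨Nat.prime_two⟩
  obtain ⟨q, hq, hq0⟩ := hP.exists_fixed_point_of_prime_dvd_card_of_fixed_point (V ⧸ V₀) hdvd h0
  induction q using QuotientAddGroup.induction_on with
  | H v =>
  have hf : ∀ d : K, ∃ w : WW K V, uu d • v = v + w := by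
    intro d
    by_cases hd : d = 0
    · exact ⟨0, by simp [hd, uu_zero]⟩
    have h1 : ((uu d • v : V) : V ⧸ V₀) = v := hq (Multiplicative.ofAdd d)
    obtain ⟨p, hp⟩ : -v + uu d • v ∈ V₀ := QuotientAddGroup.eq.1 h1.symm
    rw [LL_apply] at hp
    have h2 := congrArg (fun z : V => uu d • z) hp
    simp only [smul_add, smul_neg, uu_uu_smul, R2'] at h2
    rw [p.1.2 d] at h2
    have h3 := congrArg (fun z : V => (nn : SL(2, K)) • z) (two_W hy.fpf hy.four p.2.2)
    simp only [smul_add, smul_zero] at h3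
    have h4 := two_W hy.fpf hy.four p.1.2
    have h5 : d • p.2 = 0 := by
      apply Subtype.ext
      rw [AddSubgroup.coe_zero]
      linear_combination (norm := abel1) h2 + hp - h3 - h4
    have h6 : p.2 = 0 := (smul_eq_zero.1 h5).resolve_left hd
    refine ⟨p.1, ?_⟩
    rw [h6, AddSubgroup.coe_zero, smul_zero] at hp
    linear_combination (norm := abel1) -hp
  choose f hf using hf
  have hw : v + (nn : SL(2, K)) • (f 1 : V) ∈ WW K V := by
    intro d
    rw [smul_add, hf, R2', ← lin_of v f hf d]
    have := two_W hy.fpf hy.four (f d).2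
    linear_combination (norm := abel1) this
  apply hq0
  symm
  rw [QuotientAddGroup.eq_zero_iff]
  refine ⟨(⟨_, hw⟩, -f 1), ?_⟩
  rw [LL_apply]
  simp

theorem exists_coord [Finite K] [Finite V] {m : ℕ} (hV : Nat.card V = 2 ^ m) :
    ∃ (k : ℕ) (P : V ≃+ (Fin k → Fin 2 → K)), ∀ (g : SL(2, K)) (v : V) (i : Fin k),
      P (g • v) i = g.1.mulVec (P v i) := by
  let b := Module.finBasis K (WW K V)
  let E : WW K V × WW K V ≃+ V := AddEquiv.ofBijective (LL K V) ⟨LL_inj, LL_surj hV⟩
  let F : WW K V × WW K V ≃+ (Fin (Module.finrank K (WW K V)) → Fin 2 → K) :=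
    { toFun := fun p i => ![b.repr p.1 i, b.repr p.2 i]
      invFun := fun c => (b.equivFun.symm fun i => c i 0, b.equivFun.symm fun i => c i 1)
      left_inv := fun p => by
        ext <;> simp
      right_inv := fun c => by
        ext i j
        fin_cases j <;> simp [-Module.Basis.equivFun_symm_apply, ← Module.Basis.equivFun_apply]
      map_add' := fun p q => by
        ext i j
        fin_cases j <;> simp }
  refine ⟨_, E.symm.trans F, fun g v i => ?_⟩
  obtain ⟨p, rfl⟩ := E.surjective v
  have : g • E p = E (g.1 0 0 • p.1 + g.1 0 1 • p.2, g.1 1 0 • p.1 + g.1 1 1 • p.2) := act g p.1 p.2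
  rw [this]
  simp only [AddEquiv.trans_apply, AddEquiv.symm_apply_apply]
  ext j
  fin_cases j <;> simp [F, Matrix.mulVec, dotProduct, Fin.sum_univ_two]

end Cfsg.Agent.HigSL
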